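import Cfsg.Agent.Lib.Helper17.E6I.DefsE

/-! # S2175 farm E6I (helper17), piece [E11] (helper84) -/

set_option autoImplicit false

namespace Cfsg.Agent.Lib.Helper84.E6I

open Cfsg.Lie Cfsg.Agent.Lib.Helper18 Cfsg.Agent.Lib.Helper17 Cfsg.Agent.Lib.Helper36
  Cfsg.Agent.Lib.Helper6 Matrix Cfsg.Agent.Lib.Helper17.E6I

variable {F : Type*} [Field F] (hB : Base chevE6 F)

theorem E11_comm {r s : ℕ} (hr : r < chevE6.nroots) (hs : s < chevE6.nroots)
    (h : s ≠ r ∧ s ≠ chevE6.neg r ∧ chevE6.commTerms r s = []) (t u : F) :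
    hB.xg r t * hB.xg s u = hB.xg s u * hB.xg r t :=
  CG.comm_dvd hB (m := 0) (by simp) hr hs (Or.inr ⟨h.1, h.2.1, by rw [h.2.2]; simp⟩) t u

theorem E11_c66_68 (t u : F) : hB.xg 66 t * hB.xg 68 u = hB.xg 68 u * hB.xg 66 t :=
  E11_comm hB (by decide +kernel) (by decide +kernel) (by decide +kernel) t u

theorem E11_c55_65 (t u : F) : hB.xg 55 t * hB.xg 65 u = hB.xg 65 u * hB.xg 55 t :=
  E11_comm hB (by decide +kernel) (by decide +kernel) (by decide +kernel) t u

theorem E11_c55_67 (t u : F) : hB.xg 55 t * hB.xg 67 u = hB.xg 67 u * hB.xg 55 t :=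
  E11_comm hB (by decide +kernel) (by decide +kernel) (by decide +kernel) t u

theorem E11_c65_67 (t u : F) : hB.xg 65 t * hB.xg 67 u = hB.xg 67 u * hB.xg 65 t :=
  E11_comm hB (by decide +kernel) (by decide +kernel) (by decide +kernel) t u

theorem E11_sq [CharP F 2] (r : ℕ) : hB.xg r 1 * hB.xg r 1 = 1 := by
  rw [hB.xg_add, CharTwo.add_self_eq_zero, hB.xg_zero]

theorem E11_hD : chevE6 ∈ [chevG2, chevB2, chevD4, chevF4, chevE6, chevE7, chevE8] := by simp

theorem E11_pos : ∀ r : Fin 72, 36 ≤ r.val → chevE6.IsPosRoot r.val := by decide +kernel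

/-- [E11] -/
theorem y_props [CharP F 2] : (y1 hB ∈ chevE6.group F ∧ orderOf (y1 hB) = 2) ∧
    (y2 hB ∈ chevE6.group F ∧ orderOf (y2 hB) = 2) ∧ (y3 hB ∈ chevE6.group F ∧ orderOf (y3 hB) = 2) := by
  have hm : ∀ r : ℕ, r < 72 → hB.xg r 1 ∈ chevE6.group F := fun r hr => hB.xg_mem_group hr 1
  refine ⟨⟨hm 71 (by norm_num), ?_⟩, ⟨mul_mem (hm 68 (by norm_num)) (hm 66 (by norm_num)), ?_⟩,
    ⟨mul_mem (mul_mem (hm 55 (by norm_num)) (hm 65 (by norm_num))) (hm 67 (by norm_num)), ?_⟩⟩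
  · apply orderOf_eq_prime
    · rw [sq]; exact E11_sq hB 71
    · intro h
      have := (hB.xg_eq_one_iff (r := 71) (by decide +kernel) 1).1 h
      exact one_ne_zero this
  · apply orderOf_eq_prime
    · rw [sq]
      unfold y2
      calc hB.xg 68 1 * hB.xg 66 1 * (hB.xg 68 1 * hB.xg 66 1)
          = hB.xg 68 1 * (hB.xg 66 1 * hB.xg 68 1) * hB.xg 66 1 := by group
        _ = (hB.xg 68 1 * hB.xg 68 1) * (hB.xg 66 1 * hB.xg 66 1) := by
            rw [E11_c66_68]; group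
        _ = 1 := by rw [E11_sq, E11_sq, one_mul]
    · intro h
      unfold y2 at h
      rw [← E11_c66_68] at h
      have h1 : CG.lp hB [66, 68] (fun _ => (1 : F)) = CG.lp hB [66, 68] (fun _ => 0) := by
        rw [CG.lp_zero]
        simpa [CG.lp] using h
      have := CG.lp_inj hB E11_hD (L := [66, 68])
        (by intro r hr; simp at hr; rcases hr with rfl | rfl <;> decide +kernel) (by simp) h1 66 (by simp)
      exact one_ne_zero this
  · apply orderOf_eq_prime
    · rw [sq]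
      unfold y3
      calc hB.xg 55 1 * hB.xg 65 1 * hB.xg 67 1 * (hB.xg 55 1 * hB.xg 65 1 * hB.xg 67 1)
          = hB.xg 55 1 * hB.xg 65 1 * (hB.xg 67 1 * hB.xg 55 1) * hB.xg 65 1 * hB.xg 67 1 := by group
        _ = hB.xg 55 1 * (hB.xg 65 1 * hB.xg 55 1) * (hB.xg 67 1 * hB.xg 65 1) * hB.xg 67 1 := by
            rw [← E11_c55_67]; group
        _ = (hB.xg 55 1 * hB.xg 55 1) * (hB.xg 65 1 * hB.xg 65 1) * (hB.xg 67 1 * hB.xg 67 1) := by
            rw [← E11_c55_65, ← E11_c65_67]; group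
        _ = 1 := by rw [E11_sq, E11_sq, E11_sq, one_mul, one_mul]
    · intro h
      unfold y3 at h
      have h1 : CG.lp hB [55, 65, 67] (fun _ => (1 : F)) = CG.lp hB [55, 65, 67] (fun _ => 0) := by
        rw [CG.lp_zero]
        simpa [CG.lp, mul_assoc] using h
      have := CG.lp_inj hB E11_hD (L := [55, 65, 67])
        (by intro r hr; simp at hr; rcases hr with rfl | rfl | rfl <;> decide +kernel) (by simp) h1 55
        (by simp)
      exact one_ne_zero this

end Cfsg.Agent.Lib.Helper84.E6I
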