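import Cfsg.Agent.Lib.Helper84.E6I.E11

/-! # S2175 farm E6I (helper17), piece [N2] (helper84) -/

set_option autoImplicit false

namespace Cfsg.Agent.Lib.Helper84.E6I

open Cfsg.Lie Cfsg.Agent.Lib.Helper18 Cfsg.Agent.Lib.Helper17 Cfsg.Agent.Lib.Helper36
  Cfsg.Agent.Lib.Helper6 Matrix Cfsg.Agent.Lib.Helper17.E6I

variable {F : Type*} [Field F] (hB : Base chevE6 F)

theorem N2_tabPC : ∀ s ∈ S7, ∀ s' ∈ S7, s < chevE6.nroots ∧ s' < chevE6.nroots ∧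
    (s' = s ∨ (s' ≠ s ∧ s' ≠ chevE6.neg s ∧ chevE6.commTerms s s' = [])) := by
  decide +kernel

theorem N2_PC : CG.PC hB S7 := by
  intro s hs s' hs' t u
  obtain ⟨h1, h2, h3⟩ := N2_tabPC s hs s' hs'
  rcases h3 with rfl | h3
  · rw [hB.xg_add, hB.xg_add, add_comm]
  · exact E11_comm hB h1 h2 h3 t u

theorem N2_pos : ∀ r ∈ S7, chevE6.IsPosRoot r := by decide +kernel

theorem N2_sorted : S7.Pairwise (· < ·) := by decide

theorem N2_nodup : S7.Nodup := by decide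

/-- the Weyl words -/
def N2Ls : List (List ℕ) :=
  [[], [0,2,3,4,5,0,2,3,4,0,2,3,0,2,1,0], [5,3,2,1,3,4,0,2,3], [2,1,3,4,5,0,2,3]]

theorem N2_Ls_lt : ∀ L ∈ N2Ls, ∀ i ∈ L, i < chevE6.rank := by decide +kernel

theorem N2_Ls_pos : ∀ L ∈ N2Ls, ∀ s ∈ S7, chevE6.IsPosRoot (wAct chevE6 L s) := by decide +kernel

theorem N2_Ls_only : ∀ r : Fin 72, (∀ L ∈ N2Ls, chevE6.IsPosRoot (wAct chevE6 L r.val)) → r.val ∈ S7 := by
  decide +kernel

theorem N2_lp_mul {L : List ℕ} (hc : CG.PC hB L) (d d' : ℕ → F) :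
    CG.lp hB L d * CG.lp hB L d' = CG.lp hB L (fun s => d s + d' s) := by
  induction L with
  | nil => simp
  | cons k L ih =>
    rw [CG.lp_cons, CG.lp_cons, CG.lp_cons, ← ih hc.tail, ← hB.xg_add]
    have h1 : hB.xg k (d' k) * CG.lp hB L d = CG.lp hB L d * hB.xg k (d' k) :=
      CG.lp_comm hB (fun s hs u => hc k (by simp) s (by simp [hs]) _ u) d
    calc hB.xg k (d k) * CG.lp hB L d * (hB.xg k (d' k) * CG.lp hB L d')
        = hB.xg k (d k) * (CG.lp hB L d * hB.xg k (d' k)) * CG.lp hB L d' := by group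
      _ = hB.xg k (d k) * hB.xg k (d' k) * (CG.lp hB L d * CG.lp hB L d') := by rw [← h1]; group

/-- the subgroup of the `lp S7 d` with `d` supported on `T` -/
def N2Sg (T : ℕ → Prop) : Subgroup (GL chevE6.Idx F) where
  carrier := {g | ∃ d : ℕ → F, (∀ s, ¬ T s → d s = 0) ∧ g = CG.lp hB S7 d}
  one_mem' := ⟨fun _ => 0, fun _ _ => rfl, (CG.lp_zero hB S7).symm⟩
  mul_mem' := by
    rintro _ _ ⟨d, hd, rfl⟩ ⟨d', hd', rfl⟩
    exact ⟨fun s => d s + d' s, fun s hs => by simp only [hd s hs, hd' s hs, add_zero],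
      N2_lp_mul hB (N2_PC hB) d d'⟩
  inv_mem' := by
    rintro _ ⟨d, hd, rfl⟩
    refine ⟨fun s => - d s, fun s hs => by simp only [hd s hs, neg_zero], ?_⟩
    rw [inv_eq_iff_mul_eq_one, N2_lp_mul hB (N2_PC hB)]
    simp only [add_neg_cancel]
    exact CG.lp_zero hB S7

theorem N2_single_mem (T : ℕ → Prop) {k : ℕ} (hk : k ∈ S7) (hT : T k) (t : F) :
    hB.xg k t ∈ N2Sg hB T := by
  refine ⟨CG.upd (fun _ => 0) k t, ?_, ?_⟩
  · intro s hs
    have : s ≠ k := by rintro rfl; exact hs hT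
    simp [CG.upd, this]
  · rw [← CG.lp_mul_single hB N2_nodup hk (fun s hs e u => N2_PC hB k hk s hs e u), CG.lp_zero,
      one_mul]

/-- [N2] -/
theorem supp_S7 {n : GL chevE6.Idx F} {π : ℕ → ℕ} (hn : CG.GAct hB n π) {c c' : ℕ → F}
    (h : n * CG.lp hB S7 c * n⁻¹ = CG.lp hB S7 c') :
    ∀ s' ∈ S7, c' s' ≠ 0 → ∃ s ∈ S7, c s ≠ 0 ∧ π s = s' := by
  have h1 : ∀ s ∈ S7, c s ≠ 0 → π s ∈ S7 := by
    intro s hs hcs
    have hlt : π s < 72 := (hn s (N2_pos s hs).1).1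
    refine N2_Ls_only ⟨π s, hlt⟩ fun L hL => ?_
    exact CG.pos_of_word hB E11_hD hn N2_pos N2_sorted (N2_PC hB) h (N2_Ls_lt L hL) (N2_Ls_pos L hL)
      s hs hcs
  have h2 : n * CG.lp hB S7 c * n⁻¹ ∈ N2Sg hB (fun s' => ∃ s ∈ S7, c s ≠ 0 ∧ π s = s') := by
    apply CG.lp_conj_mem hB hn _ (fun s hs => (N2_pos s hs).1)
    intro s hs hcs t
    exact N2_single_mem hB _ (h1 s hs hcs) ⟨s, hs, hcs, rfl⟩ t
  obtain ⟨d, hd, e⟩ := h2
  rw [h] at e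
  have h3 := CG.lp_inj hB E11_hD N2_pos N2_sorted e
  intro s' hs' hc'
  by_contra hcon
  apply hc'
  rw [h3 s' hs', hd s' hcon]

end Cfsg.Agent.Lib.Helper84.E6I
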