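import Cfsg.Agent.Lib.Helper84.E6I.N3of
import Cfsg.Agent.Lib.Helper84.E6I.N2
import Cfsg.Agent.Lib.Helper50.E6I.N1

/-! # S2175 farm E6I (helper17), piece [N3] (helper84): exact form -/

set_option autoImplicit false

namespace Cfsg.Agent.Lib.Helper84.E6I

open Cfsg.Lie Cfsg.Agent.Lib.Helper18 Cfsg.Agent.Lib.Helper17 Cfsg.Agent.Lib.Helper36
  Cfsg.Agent.Lib.Helper6 Matrix Cfsg.Agent.Lib.Helper17.E6I

variable {F : Type*} [Field F] (hB : Base chevE6 F)

theorem N3_h1 [CharP F 2] : N1P hB := by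
  intro u hu c
  exact Cfsg.Agent.Lib.Helper50.E6I.conj_S7 hB hu c

theorem N3_h2 : N2P hB := by
  intro n π hn c c' h
  exact supp_S7 hB hn h

/-- [N3] -/
theorem not_conj12 [CharP F 2] {h : GL chevE6.Idx F} (hh : h ∈ chevE6.group F)
    (e : h * y1 hB * h⁻¹ = y2 hB) : False := not_conj12_of hB (N3_h1 hB) (N3_h2 hB) hh e

theorem not_conj13 [CharP F 2] {h : GL chevE6.Idx F} (hh : h ∈ chevE6.group F)
    (e : h * y1 hB * h⁻¹ = y3 hB) : False := not_conj13_of hB (N3_h1 hB) (N3_h2 hB) hh e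

theorem not_conj23 [CharP F 2] {h : GL chevE6.Idx F} (hh : h ∈ chevE6.group F)
    (e : h * y2 hB * h⁻¹ = y3 hB) : False := not_conj23_of hB (N3_h1 hB) (N3_h2 hB) hh e

end Cfsg.Agent.Lib.Helper84.E6I
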