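import Cfsg.Agent.Lib.Helper84.E6I.E11

/-! # S2175 farm E6I (helper17), piece [N3] (helper84): from N1 and N2 as hypotheses -/

set_option autoImplicit false

namespace Cfsg.Agent.Lib.Helper84.E6I

open Cfsg.Lie Cfsg.Agent.Lib.Helper18 Cfsg.Agent.Lib.Helper17 Cfsg.Agent.Lib.Helper36
  Cfsg.Agent.Lib.Helper6 Matrix Cfsg.Agent.Lib.Helper17.E6I

variable {F : Type*} [Field F] (hB : Base chevE6 F)

/-- the statement of [N1] -/
def N1P : Prop := ∀ {u : GL chevE6.Idx F} (_ : u ∈ chevE6.posUnipotent F) (c : ℕ → F),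
    ∃ c' : ℕ → F, u * CG.lp hB S7 c * u⁻¹ = CG.lp hB S7 c' ∧ c' 55 = c 55 ∧ c' 65 = c 65 ∧ c' 67 = c 67 ∧
      (c 55 = 0 → c 65 = 0 → c 67 = 0 → c' 66 = c 66 ∧ c' 68 = c 68) ∧
      ((∀ s ∈ S7, s ≠ 71 → c s = 0) → ∀ s ∈ S7, c' s = c s)

/-- the statement of [N2] -/
def N2P : Prop := ∀ {n : GL chevE6.Idx F} {π : ℕ → ℕ} (_ : CG.GAct hB n π) {c c' : ℕ → F}
    (_ : n * CG.lp hB S7 c * n⁻¹ = CG.lp hB S7 c'),
    ∀ s' ∈ S7, c' s' ≠ 0 → ∃ s ∈ S7, c s ≠ 0 ∧ π s = s'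

theorem N3_key (h1 : N1P hB) (h2 : N2P hB) {h : GL chevE6.Idx F} (hh : h ∈ chevE6.group F)
    {c c' : ℕ → F} (e : h * CG.lp hB S7 c * h⁻¹ = CG.lp hB S7 c') :
    ∃ (π : ℕ → ℕ) (d d' : ℕ → F),
      (∀ a b, a < chevE6.nroots → b < chevE6.nroots →
        chevE6.pairing (π a) (π b) = chevE6.pairing a b) ∧
      (d 55 = c 55 ∧ d 65 = c 65 ∧ d 67 = c 67 ∧
        (c 55 = 0 → c 65 = 0 → c 67 = 0 → d 66 = c 66 ∧ d 68 = c 68) ∧
        ((∀ s ∈ S7, s ≠ 71 → c s = 0) → ∀ s ∈ S7, d s = c s)) ∧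
      (d' 55 = c' 55 ∧ d' 65 = c' 65 ∧ d' 67 = c' 67 ∧
        (c' 55 = 0 → c' 65 = 0 → c' 67 = 0 → d' 66 = c' 66 ∧ d' 68 = c' 68) ∧
        ((∀ s ∈ S7, s ≠ 71 → c' s = 0) → ∀ s ∈ S7, d' s = c' s)) ∧
      (∀ s' ∈ S7, d' s' ≠ 0 → ∃ s ∈ S7, d s ≠ 0 ∧ π s = s') := by
  have hD := E11_hD
  have hT := tabs2_of_mem hD
  have hTt := hT.tab
  let X := bnData_of_mem F hD
  obtain ⟨b, hb, n, hn, u, hu, rfl⟩ := X.bruhat_normal_exists hh
  obtain ⟨u₁, hu₁, h₁, hh₁, rfl⟩ := hB.mem_B_iff.mp hb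
  have hu' := Um_le_U n hu
  have hm : h₁ * n ∈ chevE6.monomialSubgroup F := mul_mem (Base.H_le_N hh₁) hn
  obtain ⟨d, ed, hd⟩ := h1 hu' c
  obtain ⟨d', ed', hd'⟩ := h1 (inv_mem hu₁) c'
  have hmain : (h₁ * n) * CG.lp hB S7 d * (h₁ * n)⁻¹ = CG.lp hB S7 d' := by
    rw [← ed, ← ed', ← e]
    group
  let w : ↥X.P.N := ⟨⟨h₁ * n, hB.N_le_group hTt hm⟩, (X.mem_N_iff _).2 hm⟩
  obtain ⟨π, -, hAct, -, hpr, -, -⟩ := CG.exists_act X w
  exact ⟨π, d, d', hpr, hd, hd', h2 hAct hmain⟩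

/-- coefficient functions of the representatives -/
def N3c1 : ℕ → F := fun s => if s = 71 then 1 else 0
def N3c2 : ℕ → F := fun s => if s = 66 ∨ s = 68 then 1 else 0
def N3c3 : ℕ → F := fun s => if s = 55 ∨ s = 65 ∨ s = 67 then 1 else 0

theorem N3_y1 : y1 hB = CG.lp hB S7 N3c1 := by
  simp [y1, S7, N3c1]

theorem N3_y2 : y2 hB = CG.lp hB S7 N3c2 := by
  unfold y2
  rw [← E11_c66_68]
  simp [S7, N3c2]

theorem N3_y3 : y3 hB = CG.lp hB S7 N3c3 := by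
  simp [y3, S7, N3c3, mul_assoc]

theorem N3_tab : ∀ a ∈ [66, 68, 69, 70, 71], ∀ b ∈ [66, 68, 69, 70, 71], ∀ c ∈ [66, 68, 69, 70, 71],
    ¬ (chevE6.pairing a b = 0 ∧ chevE6.pairing a c = 0 ∧ chevE6.pairing b c = 0) := by
  decide +kernel

theorem N3_tab2 : chevE6.pairing 55 65 = 0 ∧ chevE6.pairing 55 67 = 0 ∧ chevE6.pairing 65 67 = 0 := by
  decide +kernel

theorem not_conj12_of (h1 : N1P hB) (h2 : N2P hB) {h : GL chevE6.Idx F} (hh : h ∈ chevE6.group F)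
    (e : h * y1 hB * h⁻¹ = y2 hB) : False := by
  rw [N3_y1, N3_y2] at e
  obtain ⟨π, d, d', -, ⟨-, -, -, -, hd⟩, ⟨-, -, -, hd', -⟩, hs⟩ := N3_key hB h1 h2 hh e
  have hd1 : ∀ s ∈ S7, d s = N3c1 s := hd (by intro s _ hs; simp [N3c1, hs])
  obtain ⟨e66, e68⟩ := hd' (by simp [N3c2]) (by simp [N3c2]) (by simp [N3c2])
  have key : ∀ s ∈ S7, d s ≠ 0 → s = 71 := by
    intro s hs h0
    rw [hd1 s hs] at h0
    by_contra hne
    simp [N3c1, hne] at h0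
  obtain ⟨s, hsS, hs0, hs1⟩ := hs 66 (by simp [S7]) (by rw [e66]; simp [N3c2])
  obtain ⟨s', hsS', hs0', hs1'⟩ := hs 68 (by simp [S7]) (by rw [e68]; simp [N3c2])
  rw [key s hsS hs0] at hs1
  rw [key s' hsS' hs0'] at hs1'
  omega

theorem not_conj13_of (h1 : N1P hB) (h2 : N2P hB) {h : GL chevE6.Idx F} (hh : h ∈ chevE6.group F)
    (e : h * y1 hB * h⁻¹ = y3 hB) : False := by
  rw [N3_y1, N3_y3] at e
  obtain ⟨π, d, d', -, ⟨-, -, -, -, hd⟩, ⟨e55, e65, -, -, -⟩, hs⟩ := N3_key hB h1 h2 hh e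
  have hd1 : ∀ s ∈ S7, d s = N3c1 s := hd (by intro s _ hs; simp [N3c1, hs])
  have key : ∀ s ∈ S7, d s ≠ 0 → s = 71 := by
    intro s hs h0
    rw [hd1 s hs] at h0
    by_contra hne
    simp [N3c1, hne] at h0
  obtain ⟨s, hsS, hs0, hs1⟩ := hs 55 (by simp [S7]) (by rw [e55]; simp [N3c3])
  obtain ⟨s', hsS', hs0', hs1'⟩ := hs 65 (by simp [S7]) (by rw [e65]; simp [N3c3])
  rw [key s hsS hs0] at hs1
  rw [key s' hsS' hs0'] at hs1'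
  omega

theorem not_conj23_of (h1 : N1P hB) (h2 : N2P hB) {h : GL chevE6.Idx F} (hh : h ∈ chevE6.group F)
    (e : h * y2 hB * h⁻¹ = y3 hB) : False := by
  rw [N3_y2, N3_y3] at e
  obtain ⟨π, d, d', hpr, ⟨d55, d65, d67, -, -⟩, ⟨e55, e65, e67, -, -⟩, hs⟩ := N3_key hB h1 h2 hh e
  have key : ∀ s ∈ S7, d s ≠ 0 → s = 66 ∨ s = 68 ∨ s = 69 ∨ s = 70 ∨ s = 71 := by
    intro s hs h0
    simp only [S7, List.mem_cons, List.not_mem_nil, or_false] at hs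
    rcases hs with rfl | rfl | rfl | rfl | rfl | rfl | rfl | rfl
    · exact absurd (by rw [d55]; simp [N3c2]) h0
    · exact absurd (by rw [d65]; simp [N3c2]) h0
    · simp
    · exact absurd (by rw [d67]; simp [N3c2]) h0
    · simp
    · simp
    · simp
    · simp
  obtain ⟨a, haS, ha0, ha1⟩ := hs 55 (by simp [S7]) (by rw [e55]; simp [N3c3])
  obtain ⟨b, hbS, hb0, hb1⟩ := hs 65 (by simp [S7]) (by rw [e65]; simp [N3c3])
  obtain ⟨c, hcS, hc0, hc1⟩ := hs 67 (by simp [S7]) (by rw [e67]; simp [N3c3])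
  have ka := key a haS ha0
  have kb := key b hbS hb0
  have kc := key c hcS hc0
  have la : a < 72 := by omega
  have lb : b < 72 := by omega
  have lc : c < 72 := by omega
  obtain ⟨t1, t2, t3⟩ := N3_tab2
  have p1 := hpr a b la lb
  have p2 := hpr a c la lc
  have p3 := hpr b c lb lc
  rw [ha1, hb1, t1] at p1
  rw [ha1, hc1, t2] at p2
  rw [hb1, hc1, t3] at p3
  exact N3_tab a (by simpa using ka) b (by simpa using kb) c (by simpa using kc)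
    ⟨p1.symm, p2.symm, p3.symm⟩

end Cfsg.Agent.Lib.Helper84.E6I
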